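import Groth.Agent.Ega4late.H521.QRegSpan
import Mathlib.RingTheory.LocalRing.MaximalIdeal.Basic
import Mathlib.RingTheory.Jacobson.Ideal

/-!
# Quasi-regular systems of generators and bases of the cotangent module
-/

set_option autoImplicit false
universe u

namespace Groth.Agent.Ega4late.H521.QRegCot

open Groth.Agent.Ega4late.H521.QRegSpan

variable {A : Type u} [CommRing A] (I : Ideal A)

/-- (a) implies (c), linear independence. -/
lemma linearIndependent_of_isQuasiRegular {m : ℕ} (f : Fin m → I)
    (hf : CAlgX.IsQuasiRegular (fun i => (f i : A)))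
    (hs : Ideal.span (Set.range fun i => (f i : A)) = I) :
    LinearIndependent (A ⧸ I) (fun i => I.toCotangent (f i)) := by
  rw [Fintype.linearIndependent_iff]
  intro c hc i
  have hsurj := Ideal.Quotient.mk_surjective (I := I)
  choose a ha using fun i => hsurj (c i)
  rw [← ha i]
  apply Ideal.Quotient.eq_zero_iff_mem.mpr
  have h1 : I.toCotangent (∑ i, a i • f i) = 0 := by
    rw [map_sum, ← hc]
    refine Finset.sum_congr rfl fun i _ => ?_
    rw [map_smul, ← ha i]
    rfl
  rw [Ideal.toCotangent_eq_zero] at h1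
  have h2 : ((∑ i, a i • f i : I) : A) = ∑ i, a i * (f i : A) := by
    simp
  rw [h2] at h1
  have := mem_of_sum_mem hf a (by rw [hs]; exact h1) i
  rwa [hs] at this

/-- (a) implies (c), spanning. -/
lemma span_eq_top_of_span_eq {m : ℕ} (f : Fin m → I)
    (hs : Ideal.span (Set.range fun i => (f i : A)) = I) :
    Submodule.span (A ⧸ I) (Set.range fun i => I.toCotangent (f i)) = ⊤ := by
  rw [eq_top_iff]
  rintro x -
  obtain ⟨⟨y, hy⟩, rfl⟩ := I.toCotangent_surjective x
  have hy' := hy
  rw [← hs, Ideal.mem_span_range_iff_exists_fun] at hy'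
  obtain ⟨c, hc⟩ := hy'
  have h1 : (⟨y, hy⟩ : I) = ∑ i, c i • f i := by
    apply Subtype.ext
    simp [← hc]
  rw [h1, map_sum]
  refine Submodule.sum_mem _ fun i _ => ?_
  rw [map_smul]
  have h2 : c i • I.toCotangent (f i) = (Ideal.Quotient.mk I (c i)) • I.toCotangent (f i) := rfl
  rw [h2]
  exact Submodule.smul_mem _ _ (Submodule.subset_span ⟨i, rfl⟩)

/-- Nakayama: lifts of generators of `I / I ^ 2` generate `I`. -/
lemma span_eq_of_span_eq_top [IsLocalRing A] (hI : I ≤ IsLocalRing.maximalIdeal A) (hfg : I.FG)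
    {m : ℕ} (f : Fin m → I)
    (hs : Submodule.span (A ⧸ I) (Set.range fun i => I.toCotangent (f i)) = ⊤) :
    Ideal.span (Set.range fun i => (f i : A)) = I := by
  apply le_antisymm
  · rw [Ideal.span_le]
    rintro _ ⟨i, rfl⟩
    exact (f i).2
  · apply Submodule.le_of_le_smul_of_le_jacobson_bot (I := I) hfg
      (by rw [IsLocalRing.jacobson_eq_maximalIdeal ⊥ bot_ne_top]; exact hI)
    intro y hy
    have h1 : I.toCotangent ⟨y, hy⟩ ∈ Submodule.span (A ⧸ I) (Set.range fun i => I.toCotangent (f i)) := by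
      rw [hs]; trivial
    rw [Submodule.mem_span_range_iff_exists_fun] at h1
    obtain ⟨c, hc⟩ := h1
    choose a ha using fun i => Ideal.Quotient.mk_surjective (I := I) (c i)
    have h2 : I.toCotangent (∑ i, a i • f i) = I.toCotangent ⟨y, hy⟩ := by
      rw [map_sum, ← hc]
      refine Finset.sum_congr rfl fun i _ => ?_
      rw [map_smul, ← ha i]
      rfl
    rw [Ideal.toCotangent_eq] at h2
    have h3 : ((∑ i, a i • f i : I) : A) = ∑ i, a i * (f i : A) := by
      simp
    rw [h3] at h2
    change _ - y ∈ _ at h2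
    have h4 : y = ∑ i, a i * (f i : A) - (∑ i, a i * (f i : A) - y) := by ring
    rw [h4]
    apply Submodule.sub_mem
    · apply Submodule.mem_sup_left
      exact Ideal.sum_mem _ fun i _ => Ideal.mul_mem_left _ _ (Ideal.subset_span ⟨i, rfl⟩)
    · apply Submodule.mem_sup_right
      rw [smul_eq_mul, ← pow_two]
      exact h2

/-- The equivalence. -/
theorem main [IsLocalRing A] (hI : I ≤ IsLocalRing.maximalIdeal A)
    (hq : ∃ (r : ℕ) (g : Fin r → A), CAlgX.IsQuasiRegular g ∧ Ideal.span (Set.range g) = I)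
    {m : ℕ} (f : Fin m → I) :
    (CAlgX.IsQuasiRegular (fun i => (f i : A)) ∧ Ideal.span (Set.range fun i => (f i : A)) = I) ↔
      (LinearIndependent (A ⧸ I) (fun i => I.toCotangent (f i)) ∧
        Submodule.span (A ⧸ I) (Set.range fun i => I.toCotangent (f i)) = ⊤) := by
  constructor
  · rintro ⟨h1, h2⟩
    exact ⟨linearIndependent_of_isQuasiRegular I f h1 h2, span_eq_top_of_span_eq I f h2⟩
  · rintro ⟨h1, h2⟩
    obtain ⟨r, g, hg, hgI⟩ := hq
    have hfg : I.FG := by
      rw [← hgI]
      exact ⟨(Set.finite_range g).toFinset, by simp⟩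
    have hs := span_eq_of_span_eq_top I hI hfg f h2
    refine ⟨?_, hs⟩
    have hgm : ∀ i, g i ∈ I := fun i => by rw [← hgI]; exact Ideal.subset_span ⟨i, rfl⟩
    let g' : Fin r → I := fun i => ⟨g i, hgm i⟩
    have hg1 := linearIndependent_of_isQuasiRegular I g' hg hgI
    have hg2 := span_eq_top_of_span_eq I g' hgI
    have hne : Nontrivial (A ⧸ I) := Ideal.Quotient.nontrivial_iff.mpr (by
      intro h
      rw [h] at hI
      exact (IsLocalRing.maximalIdeal.isMaximal A).ne_top (top_le_iff.mp hI))
    let b1 := Module.Basis.mk h1 h2.ge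
    let b2 := Module.Basis.mk hg1 hg2.ge
    have hmr : m = r := by
      have := Fintype.card_congr (b1.indexEquiv b2)
      simpa using this
    subst hmr
    exact isQuasiRegular_of_span_eq g _ hg (by rw [hs, hgI])

end Groth.Agent.Ega4late.H521.QRegCot
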