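import Groth.Prelude.Def_CAlgX
import Mathlib.RingTheory.Ideal.Cotangent
import Mathlib.RingTheory.Nakayama
import Mathlib.LinearAlgebra.Matrix.NonsingularInverse
import Mathlib.LinearAlgebra.Dimension.Finite
import Mathlib.LinearAlgebra.Basis.Basic

/-!
# Quasi-regular sequences and changes of generators
-/

set_option autoImplicit false
universe u

open MvPolynomial

namespace Groth.Agent.Ega4late.H521.QRegSpan

variable {A : Type u} [CommRing A]

/-- The coefficients of a linear relation modulo `I ^ 2` lie in `I`. -/
lemma mem_of_sum_mem {n : ℕ} {f : Fin n → A} (hf : CAlgX.IsQuasiRegular f) (a : Fin n → A)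
    (h : ∑ k, a k * f k ∈ Ideal.span (Set.range f) ^ 2) (k : Fin n) :
    a k ∈ Ideal.span (Set.range f) := by
  classical
  have h1 := hf 1 (∑ k, C (a k) * X k) (by
    refine IsHomogeneous.sum _ _ _ fun k _ => ?_
    have := (isHomogeneous_C (Fin n) (a k)).mul (isHomogeneous_X A k)
    rwa [zero_add] at this) (by simpa using h) (Finsupp.single k 1)
  have h2 : (∑ k, C (a k) * X k : MvPolynomial (Fin n) A).coeff (Finsupp.single k 1) = a k := by
    rw [coeff_sum, Finset.sum_eq_single k]
    · simp [coeff_C_mul, coeff_X]
    · intro b _ hb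
      rw [coeff_C_mul, coeff_X, if_neg, mul_zero]
      intro hh
      exact hb ((Finsupp.single_left_inj one_ne_zero).mp hh)
    · simp
  rwa [h2] at h1

/-- Another system of generators of the same length of the ideal generated by a quasi-regular
sequence is quasi-regular. -/
theorem isQuasiRegular_of_span_eq {n : ℕ} (f f' : Fin n → A)
    (hf : CAlgX.IsQuasiRegular f) (h : Ideal.span (Set.range f') = Ideal.span (Set.range f)) :
    CAlgX.IsQuasiRegular f' := by
  classical
  have hb : ∀ i, ∃ c : Fin n → A, ∑ j, c j * f' j = f i := by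
    intro i
    rw [← Ideal.mem_span_range_iff_exists_fun, h]
    exact Ideal.subset_span ⟨i, rfl⟩
  have ha : ∀ j, ∃ c : Fin n → A, ∑ k, c k * f k = f' j := by
    intro j
    rw [← Ideal.mem_span_range_iff_exists_fun, ← h]
    exact Ideal.subset_span ⟨j, rfl⟩
  choose b hb using hb
  choose a ha using ha
  set I := Ideal.span (Set.range f) with hI
  let mk := Ideal.Quotient.mk I
  -- `B * A = 1` modulo `I`
  have hBA : ∀ i k, (Matrix.of b * Matrix.of a - 1 : Matrix (Fin n) (Fin n) A) i k ∈ I := by
    intro i
    apply mem_of_sum_mem hf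
    have h0 : ∑ k, (Matrix.of b * Matrix.of a - 1 : Matrix (Fin n) (Fin n) A) i k * f k = 0 := by
      simp only [Matrix.sub_apply, sub_mul, Finset.sum_sub_distrib]
      have h1 : ∑ k, (Matrix.of b * Matrix.of a) i k * f k = f i := by
        simp only [Matrix.mul_apply, Matrix.of_apply, Finset.sum_mul]
        rw [Finset.sum_comm]
        rw [← hb i]
        refine Finset.sum_congr rfl fun j _ => ?_
        rw [← ha j, Finset.mul_sum]
        refine Finset.sum_congr rfl fun k _ => ?_
        ring
      have h2 : ∑ k, (1 : Matrix (Fin n) (Fin n) A) i k * f k = f i := by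
        simp [Matrix.one_apply]
      rw [h1, h2, sub_self]
    rw [h0]
    exact zero_mem _
  have hBA' : (Matrix.of b).map mk * (Matrix.of a).map mk = 1 := by
    ext i k
    have := Ideal.Quotient.eq_zero_iff_mem.mpr (hBA i k)
    rw [Matrix.sub_apply, map_sub, sub_eq_zero] at this
    rw [← Matrix.map_mul, Matrix.map_apply]
    change mk _ = _
    rw [show mk ((Matrix.of b * Matrix.of a) i k) = mk ((1 : Matrix (Fin n) (Fin n) A) i k) from this]
    by_cases hik : i = k
    · subst hik; simp
    · simp [Matrix.one_apply_ne hik]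
  have hAB' : (Matrix.of a).map mk * (Matrix.of b).map mk = 1 := mul_eq_one_comm.mp hBA'
  intro m P hP hPe
  rw [h] at hPe ⊢
  let LA : Fin n → MvPolynomial (Fin n) A := fun j => ∑ k, C (a j k) * X k
  let LB : Fin n → MvPolynomial (Fin n) (A ⧸ I) := fun j => ∑ k, C (mk (b j k)) * X k
  let Q := bind₁ LA P
  have hLA : ∀ j, (LA j).IsHomogeneous 1 := by
    intro j
    refine IsHomogeneous.sum _ _ _ fun k _ => ?_
    have := (isHomogeneous_C (Fin n) (a j k)).mul (isHomogeneous_X A k)
    rwa [zero_add] at this
  have hQ : Q.IsHomogeneous m := by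
    have := hP.aeval LA hLA
    rw [one_mul] at this
    exact this
  have hQe : eval f Q = eval f' P := by
    have h1 : eval f Q = eval (fun j => eval f (LA j)) P := by
      exact eval₂Hom_bind₁ (RingHom.id A) f LA P
    rw [h1]
    congr 2
    funext j
    simp [LA, ha j]
  have hQc := hf m Q hQ (by rw [hQe]; exact hPe)
  have hQ0 : MvPolynomial.map mk Q = 0 := by
    ext d
    rw [coeff_map, coeff_zero]
    exact Ideal.Quotient.eq_zero_iff_mem.mpr (hQc d)
  have hP0 : MvPolynomial.map mk P = 0 := by
    have h1 : bind₁ LB (MvPolynomial.map mk Q) = MvPolynomial.map mk P := by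
      have h2 : MvPolynomial.map mk Q = bind₁ (fun j => MvPolynomial.map mk (LA j)) (MvPolynomial.map mk P) := by
        exact map_bind₁ _ _ _
      rw [h2, bind₁_bind₁]
      have h3 : (fun j => bind₁ LB (MvPolynomial.map mk (LA j))) = X := by
        funext j
        simp only [LA, map_sum, map_mul, map_C, map_X, bind₁_X_right, bind₁_C_right]
        simp only [LB, Finset.mul_sum]
        rw [Finset.sum_comm]
        have h4 : ∀ l, ∑ k, (C (mk (a j k)) * (C (mk (b k l)) * X l) : MvPolynomial (Fin n) (A ⧸ I)) =
            C ((1 : Matrix (Fin n) (Fin n) (A ⧸ I)) j l) * X l := by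
          intro l
          rw [← hAB', Matrix.mul_apply, map_sum, Finset.sum_mul]
          refine Finset.sum_congr rfl fun k _ => ?_
          simp [mul_assoc]
        simp only [h4]
        rw [Finset.sum_eq_single j]
        · simp
        · intro l _ hl
          rw [Matrix.one_apply_ne (Ne.symm hl)]
          simp
        · simp
      rw [h3, bind₁_X_left]
      rfl
    rw [← h1, hQ0, map_zero]
  intro d
  have := congrArg (coeff d) hP0
  rw [coeff_map, coeff_zero] at this
  exact Ideal.Quotient.eq_zero_iff_mem.mp this

end Groth.Agent.Ega4late.H521.QRegSpan
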