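import Groth.Prelude.Def_CInt
import Mathlib.AlgebraicGeometry.Morphisms.QuasiCompact

/-!
# Schematic density of the non-vanishing locus of a regular section
-/

set_option autoImplicit false
universe u
open CategoryTheory CategoryTheory.Limits AlgebraicGeometry TopologicalSpace

namespace Groth.Agent.Ega4late.H521.SchDenseReg

/-- If `U ≤ U'` and `U` is schematically dense then so is `U'`. -/
lemma isSchematicallyDense_mono {X : Scheme.{u}} {U U' : X.Opens} (h : U ≤ U')
    (hU : CInt.IsSchematicallyDense U) : CInt.IsSchematicallyDense U' := by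
  intro V
  have hle : V ⊓ U ≤ V ⊓ U' := inf_le_inf_left _ h
  have h1 : X.presheaf.map (homOfLE (inf_le_left : V ⊓ U ≤ V)).op =
      X.presheaf.map (homOfLE (inf_le_left : V ⊓ U' ≤ V)).op ≫ X.presheaf.map (homOfLE hle).op := by
    rw [← Functor.map_comp]; rfl
  have h2 := hU V
  rw [h1] at h2
  intro a b hab
  apply h2
  rw [CommRingCat.comp_apply, CommRingCat.comp_apply]
  exact congrArg _ hab

/-- The locus where a section with regular germs is invertible is schematically dense. -/
theorem isSchematicallyDense_basicOpen (X : Scheme.{u}) (s : Γ(X, ⊤))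
    (hs : ∀ x : ↥X, (X.presheaf.germ ⊤ x trivial s) ∈ nonZeroDivisors ↑(X.presheaf.stalk x)) :
    CInt.IsSchematicallyDense (X.basicOpen s) := by
  intro V
  rw [injective_iff_map_eq_zero]
  intro t ht
  apply TopCat.Presheaf.section_ext X.sheaf
  intro x hx
  refine Eq.trans ?_ (map_zero (X.presheaf.germ V x hx).hom).symm
  obtain ⟨_, ⟨W, hW, rfl⟩, hxW, hWV⟩ :=
    X.isBasis_affineOpens.exists_subset_of_mem_open hx V.isOpen
  have hWV' : W ≤ V := hWV
  have hxW' : x ∈ W := hxW
  -- the restriction of `t` to `W`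
  set tW : Γ(X, W) := X.presheaf.map (homOfLE hWV').op t with htW
  set sW : Γ(X, W) := X.presheaf.map (homOfLE (le_top : W ≤ ⊤)).op s with hsW
  have hbo : X.basicOpen sW = W ⊓ X.basicOpen s := X.basicOpen_res s _
  have hle : X.basicOpen sW ≤ V ⊓ X.basicOpen s := by
    rw [hbo]; exact inf_le_inf_right _ hWV'
  have hres : X.presheaf.map (homOfLE (X.basicOpen_le sW)).op tW = 0 := by
    have h1 : X.presheaf.map (homOfLE (X.basicOpen_le sW)).op tW =
        X.presheaf.map (homOfLE hle).op
          (X.presheaf.map (homOfLE (inf_le_left : V ⊓ X.basicOpen s ≤ V)).op t) := by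
      rw [htW, ← CommRingCat.comp_apply, ← CommRingCat.comp_apply, ← Functor.map_comp,
        ← Functor.map_comp]
      rfl
    rw [h1, ht, map_zero]
  obtain ⟨n, hn⟩ := exists_pow_mul_eq_zero_of_res_basicOpen_eq_zero_of_isAffineOpen X hW tW sW hres
  have h3 := congrArg (X.presheaf.germ W x hxW') hn
  rw [map_mul, map_pow, map_zero] at h3
  have h4 : X.presheaf.germ W x hxW' sW = X.presheaf.germ ⊤ x trivial s :=
    TopCat.Presheaf.germ_res_apply _ _ _ _ _
  have h5 : X.presheaf.germ W x hxW' tW = X.presheaf.germ V x hx t :=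
    TopCat.Presheaf.germ_res_apply _ _ _ _ _
  rw [h4, h5] at h3
  have h6 := pow_mem (hs x) n
  rw [mul_comm] at h3
  exact (mem_nonZeroDivisors_iff_right.mp h6) _ h3

end Groth.Agent.Ega4late.H521.SchDenseReg
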